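import Cfsg.Agent.Ree.Local
import Cfsg.Agent.PSL2Two.Concrete
import Cfsg.Agent.Solvable.MinNormal

/-!
Solvable subgroups lie in the normalisers of Sylow two-subgroups, Sylow three-subgroups or
cyclic Hall subgroups.
-/

set_option autoImplicit false

open scoped MatrixGroups Pointwise

namespace CfsgLib.Ree

open Cfsg.Lie CfsgLib.Chevalley

variable {K : Type*} [Field K] [CharP K 3] {m : ℕ} [Fintype K]

local notation "G¹" => twistedG2 K (3 ^ m)
local notation "q₀" => 3 ^ (2 * m + 1)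
local notation "PSL₂" => Matrix.ProjectiveSpecialLinearGroup (Fin 2) K

variable (hK : Fintype.card K = 3 ^ (2 * m + 1))
include hK

omit [CharP K 3] in
theorem card_mod_two : Fintype.card K % 2 = 1 := by
  rw [hK, Nat.pow_mod]; norm_num

omit [CharP K 3] in
/-- Nothing nontrivial is central among the involutions of the projective group. -/
theorem psl_central_trivial {z : PSL₂} (hz2 : z * z = 1) (hz : ∀ g : PSL₂, g * z = z * g) : z = 1 := by
  by_contra h1
  have hodd := card_mod_two hK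
  obtain ⟨c, hc⟩ := CfsgLib.PSL2Two.one_class hodd z (orderOf_eq_prime (by rw [sq]; exact hz2) h1)
  have hJ : ∀ g : PSL₂, g * QuotientGroup.mk (CfsgLib.PSL2Two.Jel K) =
      QuotientGroup.mk (CfsgLib.PSL2Two.Jel K) * g := fun g => by
    have h := hz (c * g * c⁻¹)
    rw [← hc] at h
    calc g * QuotientGroup.mk (CfsgLib.PSL2Two.Jel K)
        = c⁻¹ * (c * g * c⁻¹ * (c * QuotientGroup.mk (CfsgLib.PSL2Two.Jel K) * c⁻¹)) * c := by group
      _ = _ := by rw [h]; group
  have hD := CfsgLib.PSL2Two.dihedralCentralizer hodd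
  obtain ⟨g, hg, hgA⟩ := hD.exists_outside
  have hg1 : g ≠ 1 := fun e => hgA (e ▸ one_mem _)
  obtain ⟨d, hd⟩ := CfsgLib.PSL2Two.one_class hodd g
    (orderOf_eq_prime (by rw [sq]; exact (hD.inv g hg hgA).1) hg1)
  rw [hJ d, mul_inv_cancel_right] at hd
  exact hgA (hd ▸ hD.mem)

/-- A chosen isomorphism sends the involution to the central factor. -/
theorem iso_invE_snd (e : ↥(Subgroup.centralizer ({invE} : Set ↥G¹)) ≃* Multiplicative (ZMod 2) × PSL₂)
    (h : (invE : ↥G¹) ∈ Subgroup.centralizer ({invE} : Set ↥G¹)) : (e ⟨invE, h⟩).2 = 1 := by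
  refine psl_central_trivial hK ?_ fun g => ?_
  · rw [← Prod.snd_mul, ← map_mul, show (⟨invE, h⟩ : ↥(Subgroup.centralizer ({invE} : Set ↥G¹))) *
      ⟨invE, h⟩ = 1 from Subtype.ext (invE_mul_self), map_one, Prod.snd_one]
  · have hc : e.symm (1, g) * ⟨invE, h⟩ = ⟨invE, h⟩ * e.symm (1, g) :=
      Subtype.ext (Subgroup.mem_centralizer_singleton_iff.mp (e.symm (1, g)).2)
    have := congrArg (fun x => (e x).2) hc
    simpa using this

/-- Every commuting pair of distinct involutions is conjugate to a standard one. -/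
theorem exists_conj_pair {a b : ↥G¹} (ha : orderOf a = 2) (hb : orderOf b = 2) (hne : a ≠ b)
    (hab : a * b = b * a) (e : ↥(Subgroup.centralizer ({invE} : Set ↥G¹)) ≃* Multiplicative (ZMod 2) × PSL₂) :
    ∃ (c : ↥G¹) (w : ↥(Subgroup.centralizer ({invE} : Set ↥G¹))), c * a * c⁻¹ = invE ∧
      (w : ↥G¹) = c * b * c⁻¹ ∧ orderOf (e w).2 = 2 ∧
      (e w).2 = QuotientGroup.mk (CfsgLib.PSL2Two.Jel K) := by
  obtain ⟨c, hc⟩ := exists_conj_invE hK ha
  have hb' : c * b * c⁻¹ ∈ Subgroup.centralizer ({invE} : Set ↥G¹) := by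
    rw [Subgroup.mem_centralizer_singleton_iff, ← hc,
      show c * b * c⁻¹ * (c * a * c⁻¹) = c * (b * a) * c⁻¹ by group, ← hab]
    group
  have hE : (invE : ↥G¹) ∈ Subgroup.centralizer ({invE} : Set ↥G¹) :=
    Subgroup.mem_centralizer_singleton_iff.mpr rfl
  set w : ↥(Subgroup.centralizer ({invE} : Set ↥G¹)) := ⟨c * b * c⁻¹, hb'⟩ with hw
  have hw2 : w * w = 1 := Subtype.ext (by
    show c * b * c⁻¹ * (c * b * c⁻¹) = 1
    rw [show c * b * c⁻¹ * (c * b * c⁻¹) = c * b ^ 2 * c⁻¹ by rw [sq]; group, ← hb, pow_orderOf_eq_one, mul_one,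
      mul_inv_cancel])
  have hz : (e w).2 ≠ 1 := by
    intro h
    have hone : ∀ x : Multiplicative (ZMod 2), x = 1 ∨ x = Multiplicative.ofAdd 1 := by decide
    have hi : (e ⟨invE, hE⟩).1 = Multiplicative.ofAdd 1 := (hone _).resolve_left fun h' => by
      have : e ⟨invE, hE⟩ = 1 := Prod.ext h' (iso_invE_snd hK e hE)
      rw [MulEquiv.map_eq_one_iff] at this
      exact invE_ne_one hK (congrArg Subtype.val this)
    rcases hone (e w).1 with h' | h'
    · have : e w = 1 := Prod.ext h' h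
      rw [MulEquiv.map_eq_one_iff] at this
      have hw1 : c * b * c⁻¹ = 1 := congrArg Subtype.val this
      rw [conj_eq_one_iff] at hw1
      rw [hw1, orderOf_one] at hb
      omega
    · have heq : w = ⟨invE, hE⟩ := e.injective
        (Prod.ext (h'.trans hi.symm) (h.trans (iso_invE_snd hK e hE).symm))
      have h1 : c * b * c⁻¹ = c * a * c⁻¹ := (congrArg Subtype.val heq).trans hc.symm
      exact hne (mul_left_cancel (mul_right_cancel h1)).symm
  have hz2 : orderOf (e w).2 = 2 :=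
    orderOf_eq_prime (by rw [sq, ← Prod.snd_mul, ← map_mul, hw2, map_one, Prod.snd_one]) hz
  obtain ⟨d, hd⟩ := CfsgLib.PSL2Two.one_class (card_mod_two hK) (e w).2 hz2
  set d' : ↥(Subgroup.centralizer ({invE} : Set ↥G¹)) := e.symm (1, d⁻¹) with hd'
  refine ⟨(d' : ↥G¹) * c, d' * w * d'⁻¹, ?_, ?_, ?_, ?_⟩
  · rw [show (d' : ↥G¹) * c * a * ((d' : ↥G¹) * c)⁻¹ = (d' : ↥G¹) * (c * a * c⁻¹) * (d' : ↥G¹)⁻¹ by group,
      hc, Subgroup.mem_centralizer_singleton_iff.mp d'.2, mul_inv_cancel_right]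
  · simp only [Subgroup.coe_mul, Subgroup.coe_inv, hw]
    group
  · rw [map_mul, map_mul, map_inv, Prod.snd_mul, Prod.snd_mul, Prod.snd_inv, orderOf_conj_eq]
    exact hz2
  · rw [map_mul, map_mul, map_inv, Prod.snd_mul, Prod.snd_mul, Prod.snd_inv, hd',
      MulEquiv.apply_symm_apply, ← hd]
    group

/-- The elements of odd order centralising two commuting involutions commute. -/
theorem commute_odd {a b : ↥G¹} (ha : orderOf a = 2) (hb : orderOf b = 2) (hne : a ≠ b)
    (hab : a * b = b * a) {g h : ↥G¹} (hga : g * a = a * g) (hgb : g * b = b * g) (hg : Odd (orderOf g))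
    (hha : h * a = a * h) (hhb : h * b = b * h) (hh : Odd (orderOf h)) : g * h = h * g := by
  obtain ⟨e⟩ := centralizer_iso hK
  obtain ⟨c, w, hca, hw, -, hz⟩ := exists_conj_pair hK ha hb hne hab e
  have hodd := card_mod_two hK
  have hD := CfsgLib.PSL2Two.dihedralCentralizer hodd
  have key : ∀ u : ↥G¹, u * a = a * u → u * b = b * u → Odd (orderOf u) →
      ∃ u' : ↥(Subgroup.centralizer ({invE} : Set ↥G¹)), (u' : ↥G¹) = c * u * c⁻¹ ∧ (e u').1 = 1 ∧
        (e u').2 ∈ (CfsgLib.PSL2Two.torus K).map (QuotientGroup.mk' (Subgroup.center (SL(2, K)))) := by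
    intro u hua hub hu
    refine ⟨⟨c * u * c⁻¹, ?_⟩, rfl, ?_, ?_⟩
    · rw [Subgroup.mem_centralizer_singleton_iff, ← hca,
        show c * u * c⁻¹ * (c * a * c⁻¹) = c * (u * a) * c⁻¹ by group, hua]
      group
    all_goals
      set u' : ↥(Subgroup.centralizer ({invE} : Set ↥G¹)) := ⟨c * u * c⁻¹, _⟩
      have hu' : Odd (orderOf (e u')) := by
        rw [MulEquiv.orderOf_eq, ← Subgroup.orderOf_coe, orderOf_conj_eq]; exact hu
      rw [Prod.orderOf] at hu'
      have h1 : Odd (orderOf (e u').1) := Odd.of_dvd_nat hu' (Nat.dvd_lcm_left _ _)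
      have h2 : Odd (orderOf (e u').2) := Odd.of_dvd_nat hu' (Nat.dvd_lcm_right _ _)
    · rcases (show ∀ x : Multiplicative (ZMod 2), x = 1 ∨ x ^ 2 = 1 ∧ x ≠ 1 by decide) (e u').1 with h | h
      · exact h
      · rw [orderOf_eq_prime h.1 h.2] at h1
        exact absurd h1 (by decide)
    · have hcomm : Commute (e u').2 (QuotientGroup.mk (CfsgLib.PSL2Two.Jel K) : PSL₂) := by
        have h : u' * w = w * u' := Subtype.ext (by
          simp only [Subgroup.coe_mul, hw]
          show c * u * c⁻¹ * (c * b * c⁻¹) = c * b * c⁻¹ * (c * u * c⁻¹)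
          rw [show c * u * c⁻¹ * (c * b * c⁻¹) = c * (u * b) * c⁻¹ by group, hub]
          group)
        rw [← hz]
        exact congrArg Prod.snd (by rw [← map_mul, ← map_mul, h] : e u' * e w = e w * e u')
      by_contra hA
      have hsq := (hD.inv _ hcomm hA).1
      rcases (Nat.dvd_prime Nat.prime_two).mp
        (orderOf_dvd_of_pow_eq_one (show (e u').2 ^ 2 = 1 by rw [sq]; exact hsq)) with h | h
      · exact hA (by rw [orderOf_eq_one_iff.mp h]; exact one_mem _)
      · rw [h] at h2; exact absurd h2 (by decide)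
  obtain ⟨g', hg', hg1, hg2⟩ := key g hga hgb hg
  obtain ⟨h', hh', hh1, hh2⟩ := key h hha hhb hh
  haveI := hD.cyclic
  letI : CommGroup ↥((CfsgLib.PSL2Two.torus K).map (QuotientGroup.mk' (Subgroup.center (SL(2, K))))) :=
    IsCyclic.commGroup
  have h2 : (e g').2 * (e h').2 = (e h').2 * (e g').2 :=
    congrArg Subtype.val (mul_comm (⟨(e g').2, hg2⟩ :
      ↥((CfsgLib.PSL2Two.torus K).map (QuotientGroup.mk' (Subgroup.center (SL(2, K)))))) ⟨(e h').2, hh2⟩)
  have h3 : g' * h' = h' * g' := e.injective (by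
    rw [map_mul, map_mul]
    exact Prod.ext (by rw [Prod.fst_mul, Prod.fst_mul, hg1, hh1]) h2)
  have h4 := congrArg Subtype.val h3
  simp only [Subgroup.coe_mul, hg', hh'] at h4
  have h5 : c * (g * h) * c⁻¹ = c * (h * g) * c⁻¹ := by
    calc c * (g * h) * c⁻¹ = c * g * c⁻¹ * (c * h * c⁻¹) := by group
      _ = _ := by rw [h4]; group
  exact mul_left_cancel (mul_right_cancel h5)

variable (hm : 1 ≤ m)
include hm

theorem torusHall_eq : torusHall m 0 = (q₀ - 1) / 2 ∧ torusHall m 1 = (q₀ + 1) / 4 ∧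
    torusHall m 2 = q₀ - 3 ^ (m + 1) + 1 ∧ torusHall m 3 = q₀ + 3 ^ (m + 1) + 1 := by
  have := (params hm).rle
  simp [torusHall, torusNum, torusSmall]
  omega

/-- The conclusion for a subgroup `S`. -/
def LocalContained (S : Subgroup ↥G¹) : Prop :=
  ∃ A : Subgroup ↥G¹, S ≤ Subgroup.normalizer (A : Set ↥G¹) ∧
    ((∃ P : Sylow 2 ↥G¹, A = P) ∨ (∃ P : Sylow 3 ↥G¹, A = P) ∨
     (IsCyclic A ∧ (Nat.card A = (q₀ - 1) / 2 ∨ Nat.card A = (q₀ + 1) / 4 ∨
        Nat.card A = q₀ - 3 ^ (m + 1) + 1 ∨ Nat.card A = q₀ + 3 ^ (m + 1) + 1)))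

theorem local_of_root {S : Subgroup ↥G¹} {i : Fin 4} {z : ↥G¹} (hz : IsRoot i z)
    (hS : S ≤ Subgroup.normalizer (hallPart hm hK i hz : Set ↥G¹)) :
    LocalContained S := by
  obtain ⟨e0, e1, e2, e3⟩ := torusHall_eq (K := K) hK hm
  refine ⟨_, hS, Or.inr (Or.inr ⟨isCyclic_hallPart hm hK hz, ?_⟩)⟩
  rw [card_hallPart hm hK hz]
  fin_cases i
  · exact Or.inl e0
  · exact Or.inr (Or.inl e1)
  · exact Or.inr (Or.inr (Or.inl e2))
  · exact Or.inr (Or.inr (Or.inr e3))

theorem odd_pgroup_case {S V : Subgroup ↥G¹} {p : ℕ} (hp : p.Prime) (hp2 : p ≠ 2)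
    (hSV : S ≤ Subgroup.normalizer (V : Set ↥G¹)) (hne : V ≠ ⊥) (hV : ∀ x ∈ V, x ^ p = 1)
    (hcomm : ∀ x ∈ V, ∀ y ∈ V, x * y = y * x) : LocalContained S := by
  obtain ⟨x, hxV, hx1⟩ := V.bot_or_exists_ne_one.resolve_left hne
  haveI := Fact.mk hp
  have ho : orderOf x = p := orderOf_eq_prime (hV x hxV) hx1
  rcases eq_or_ne p 3 with rfl | hp3
  · have hpg : IsPGroup 3 ↥V := fun g => ⟨1, Subtype.ext (by rw [pow_one]; exact hV g g.2)⟩
    obtain ⟨P, hP⟩ := hpg.exists_le_sylow
    refine ⟨P, fun s hs => ?_, Or.inr (Or.inl ⟨P, rfl⟩)⟩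
    refine Sylow.smul_eq_iff_mem_normalizer.mp ?_
    by_contra hsP
    have hmem : x ∈ ((s • P : Sylow 3 ↥G¹) : Subgroup ↥G¹) := by
      rw [Sylow.coe_subgroup_smul, Subgroup.mem_pointwise_smul_iff_inv_smul_mem]
      have : s⁻¹ * x * s ∈ V := by
        have := (Subgroup.mem_normalizer_iff.mp (inv_mem (hSV hs)) x).mp hxV
        rwa [inv_inv] at this
      simpa using hP this
    have h : x ∈ ((s • P : Sylow 3 ↥G¹) : Subgroup ↥G¹) ⊓ (P : Subgroup ↥G¹) := ⟨hmem, hP hxV⟩
    rw [sylow_three_ti hK _ _ hsP, Subgroup.mem_bot] at h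
    exact hx1 h
  · have h5 : 5 ≤ p := by
      have := hp.two_le
      have h4 : p ≠ 4 := fun e => by subst e; norm_num at hp
      omega
    obtain ⟨i, z, hz, hxz⟩ := exists_root_torus hm hK (isBig_of_prime hp h5 ho)
    have hd : p ∣ torusHall m i := by
      have := Subgroup.orderOf_dvd_natCard _ hxz
      rw [ho, card_of_root hm hK hz] at this
      rcases hp.dvd_mul.mp this with h | h
      · have h4 := Nat.le_of_dvd (by rcases torusSmall_cases i with e | e | e <;> omega) h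
        rcases torusSmall_cases i with e | e | e <;> omega
      · exact h
    have hx : IsRoot i x := isRoot_mk hp h5 ho hd
    have hVC : V ≤ Subgroup.centralizer {x} := fun v hv =>
      Subgroup.mem_centralizer_singleton_iff.mpr (hcomm v hv x hxV)
    have hVH : V ≤ hallPart hm hK i hx := fun v hv => ⟨hVC hv, orderOf_dvd_iff_pow_eq_one.mp
      ((orderOf_dvd_of_pow_eq_one (hV v hv)).trans hd)⟩
    haveI := isCyclic_hallPart hm hK hx
    have hVcyc : IsCyclic ↥V :=
      isCyclic_of_injective (Subgroup.inclusion hVH) (Subgroup.inclusion_injective hVH)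
    have hVd : Nat.card ↥V ∣ torusHall m i := card_hallPart hm hK hx ▸ Subgroup.card_dvd_of_le hVH
    have hHne : hallPart hm hK i hx ≠ ⊥ := fun h => hne (le_bot_iff.mp (h ▸ hVH))
    refine local_of_root hK hm hx ?_
    rw [normalizer_eq_of_le hm hK hx (isCyclic_hallPart hm hK hx) (card_hallPart hm hK hx).dvd
      (fun a ha => ha.1) hHne, ← normalizer_eq_of_le hm hK hx hVcyc hVd hVC hne]
    exact hSV

theorem four_case {S : Subgroup ↥G¹} {V : Subgroup ↥G¹} (hV4 : Nat.card ↥V = 4)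
    (hV2 : ∀ x ∈ V, x * x = 1) (hSV : S ≤ Subgroup.normalizer (V : Set ↥G¹)) :
    LocalContained S := by
  classical
  obtain ⟨x, p, hp, h5, hox, hd⟩ := exists_prime_torus hm hK 1
  have hx := isRoot_mk hp h5 hox hd
  have h3 := card_torus_involutions hm hK hx
  haveI : Nontrivial {a : ↥G¹ // a ∈ Subgroup.centralizer {x} ∧ orderOf a = 2} :=
    Finite.one_lt_card_iff_nontrivial.mp (by omega)
  obtain ⟨⟨s, hsC, hs⟩, ⟨t, htC, ht⟩, hst⟩ :=
    exists_pair_ne {a : ↥G¹ // a ∈ Subgroup.centralizer {x} ∧ orderOf a = 2}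
  have hst' : s ≠ t := fun h => hst (Subtype.ext h)
  haveI : Nontrivial ↥V := Finite.one_lt_card_iff_nontrivial.mp (by omega)
  obtain ⟨u, hu⟩ := exists_ne (1 : ↥V)
  obtain ⟨v, hv1, hvu⟩ : ∃ v : ↥V, v ≠ 1 ∧ v ≠ u := by
    by_contra hcon
    push Not at hcon
    haveI := Fintype.ofFinite ↥V
    have hsub : (Finset.univ : Finset ↥V) ⊆ {1, u} := fun y _ => by
      rcases eq_or_ne y 1 with h | h
      · simp [h]
      · simp [hcon y h]
    have := (Finset.card_le_card hsub).trans Finset.card_le_two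
    rw [Finset.card_univ, ← Nat.card_eq_fintype_card, hV4] at this
    omega
  have hord : ∀ y : ↥V, y ≠ 1 → orderOf (y : ↥G¹) = 2 := fun y hy =>
    orderOf_eq_prime (by rw [sq]; exact hV2 _ y.2) fun h => hy (Subtype.ext h)
  have huv : (u : ↥G¹) * v = v * u := by
    have h := hV2 _ (mul_mem u.2 v.2)
    calc (u : ↥G¹) * v = ((u : ↥G¹) * v)⁻¹ := (inv_eq_of_mul_eq_one_right h).symm
      _ = _ := by rw [mul_inv_rev, inv_eq_of_mul_eq_one_right (hV2 _ u.2),
        inv_eq_of_mul_eq_one_right (hV2 _ v.2)]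
  have huv' : (u : ↥G¹) ≠ v := fun h => hvu (Subtype.ext h.symm)
  obtain ⟨e⟩ := centralizer_iso hK
  obtain ⟨c, w, hcu, hwv, -, hz1⟩ := exists_conj_pair hK (hord u hu) (hord v hv1) huv' huv e
  obtain ⟨c', w', hcs, hwt, -, hz2⟩ :=
    exists_conj_pair hK hs ht hst' (comm_of_root hm hK hx hsC htC) e
  -- move the root so that it centralises `u` and `v`
  set g : ↥G¹ := c⁻¹ * c' with hg
  set z : ↥G¹ := g * x * g⁻¹ with hzdef
  have hz : IsRoot 1 z := isRoot_mk hp h5 (by rw [hzdef, orderOf_conj_eq, hox]) hd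
  have hxs : s * x = x * s := Subgroup.mem_centralizer_singleton_iff.mp hsC
  have hxt : t * x = x * t := Subgroup.mem_centralizer_singleton_iff.mp htC
  have hgs : g * s * g⁻¹ = u := by
    rw [hg, show c⁻¹ * c' * s * (c⁻¹ * c')⁻¹ = c⁻¹ * (c' * s * c'⁻¹) * c by group, hcs, ← hcu]
    group
  have huz : (u : ↥G¹) * z = z * u := by
    rw [← hgs, hzdef]
    calc g * s * g⁻¹ * (g * x * g⁻¹) = g * (s * x) * g⁻¹ := by group
      _ = _ := by rw [hxs]; group
  have hvz : (v : ↥G¹) * z = z * v := by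
    have hinv : (invE : ↥G¹) ∈ Subgroup.centralizer ({invE} : Set ↥G¹) :=
      Subgroup.mem_centralizer_singleton_iff.mpr rfl
    have hone : ∀ a : Multiplicative (ZMod 2), a = 1 ∨ a = Multiplicative.ofAdd 1 := by decide
    set ε : ↥(Subgroup.centralizer ({invE} : Set ↥G¹)) := ⟨invE, hinv⟩
    have hε : e ε = (Multiplicative.ofAdd 1, 1) := Prod.ext ((hone _).resolve_left fun h' => by
      have : e ε = 1 := Prod.ext h' (iso_invE_snd hK e hinv)
      rw [MulEquiv.map_eq_one_iff] at this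
      exact invE_ne_one hK (congrArg Subtype.val this)) (iso_invE_snd hK e hinv)
    have hww : w = w' ∨ w = ε * w' := by
      have hsum : ∀ a b : Multiplicative (ZMod 2), a = b ∨ a = Multiplicative.ofAdd 1 * b := by decide
      rcases hsum (e w).1 (e w').1 with h | h
      · exact Or.inl (e.injective (Prod.ext h (hz1.trans hz2.symm)))
      · exact Or.inr (e.injective (by
          rw [map_mul, hε]
          exact Prod.ext h (by rw [Prod.snd_mul, one_mul, hz1, hz2])))
    have hv' : g * t * g⁻¹ = v ∨ g * (s * t) * g⁻¹ = v := by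
      rcases hww with h | h
      · left
        have h' : c * (v : ↥G¹) * c⁻¹ = c' * t * c'⁻¹ := by rw [← hwv, ← hwt, h]
        calc g * t * g⁻¹ = c⁻¹ * (c' * t * c'⁻¹) * c := by rw [hg]; group
          _ = v := by rw [← h']; group
      · right
        have h' : c * (v : ↥G¹) * c⁻¹ = c' * (s * t) * c'⁻¹ := by
          rw [← hwv, h, Subgroup.coe_mul, hwt, show ((ε : ↥G¹)) = c' * s * c'⁻¹ from hcs.symm]
          group
        calc g * (s * t) * g⁻¹ = c⁻¹ * (c' * (s * t) * c'⁻¹) * c := by rw [hg]; group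
          _ = v := by rw [← h']; group
    rcases hv' with h | h <;> rw [← h, hzdef]
    · calc g * t * g⁻¹ * (g * x * g⁻¹) = g * (t * x) * g⁻¹ := by group
        _ = _ := by rw [hxt]; group
    · calc g * (s * t) * g⁻¹ * (g * x * g⁻¹) = g * (s * (t * x)) * g⁻¹ := by group
        _ = g * (s * x * t) * g⁻¹ := by rw [hxt, ← mul_assoc s]
        _ = _ := by rw [hxs]; group
  have hall : ∀ y ∈ V, y = 1 ∨ y = u ∨ y = v ∨ y = (u : ↥G¹) * v := by
    intro y hy
    by_contra hcon
    push Not at hcon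
    haveI := Fintype.ofFinite ↥V
    have hsub : ({1, u, v, u * v, ⟨y, hy⟩} : Finset ↥V).card = 5 := by
      have h1 : u * v ≠ 1 := fun h => huv' (by
        rw [mul_eq_one_iff_eq_inv] at h
        rw [h]
        exact inv_eq_of_mul_eq_one_right (hV2 _ v.2))
      have h2 : u * v ≠ u := fun h => hv1 (mul_eq_left.mp h)
      have h3 : u * v ≠ v := fun h => hu (mul_eq_right.mp h)
      have h4 : (⟨y, hy⟩ : ↥V) ≠ 1 := fun h => hcon.1 (congrArg Subtype.val h)
      have h5 : (⟨y, hy⟩ : ↥V) ≠ u := fun h => hcon.2.1 (congrArg Subtype.val h)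
      have h6 : (⟨y, hy⟩ : ↥V) ≠ v := fun h => hcon.2.2.1 (congrArg Subtype.val h)
      have h7 : (⟨y, hy⟩ : ↥V) ≠ u * v := fun h => hcon.2.2.2 (congrArg Subtype.val h)
      simp [Finset.card_insert_of_notMem, hu.symm, hv1.symm, hvu.symm, h1.symm, h2.symm, h3.symm,
        h4.symm, h5.symm, h6.symm, h7.symm]
    have := Finset.card_le_univ ({1, u, v, u * v, ⟨y, hy⟩} : Finset ↥V)
    rw [hsub, ← Nat.card_eq_fintype_card, hV4] at this
    omega
  refine local_of_root hK hm hz fun n hn => ?_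
  -- the Hall part consists of all elements of odd order centralising `V`
  have hCz : ∀ y ∈ V, y ∈ Subgroup.centralizer {z} := fun y hy => by
    rw [Subgroup.mem_centralizer_singleton_iff]
    rcases hall y hy with rfl | rfl | rfl | rfl
    · group
    · exact huz
    · exact hvz
    · rw [mul_assoc, hvz, ← mul_assoc, huz, mul_assoc]
  have hHodd : ∀ a ∈ hallPart hm hK 1 hz, Odd (orderOf a) := fun a ha => by
    refine Odd.of_dvd_nat ?_ (orderOf_dvd_of_pow_eq_one ha.2)
    rw [Nat.odd_iff]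
    by_contra h
    have := Nat.dvd_gcd (show 2 ∣ 6 by norm_num) (show 2 ∣ torusHall m 1 by omega)
    rw [torusHall_coprime hm 1] at this
    norm_num at this
  have hHcomm : ∀ a ∈ hallPart hm hK 1 hz, ∀ y ∈ V, a * y = y * a := fun a ha y hy =>
    comm_of_root hm hK hz ha.1 (hCz y hy)
  have hzH : z ∈ hallPart hm hK 1 hz := ⟨Subgroup.mem_centralizer_singleton_iff.mpr rfl,
    orderOf_dvd_iff_pow_eq_one.mp (by rw [hzdef, orderOf_conj_eq, hox]; exact hd)⟩
  have hmem : ∀ a : ↥G¹, Odd (orderOf a) → (∀ y ∈ V, a * y = y * a) → a ∈ hallPart hm hK 1 hz := by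
    intro a ha hac
    have haz : a ∈ Subgroup.centralizer {z} := Subgroup.mem_centralizer_singleton_iff.mpr
      (commute_odd hK (hord u hu) (hord v hv1) huv' huv (hac u u.2) (hac v v.2) ha
        (hHcomm z hzH u u.2) (hHcomm z hzH v v.2) (hHodd z hzH))
    refine ⟨haz, orderOf_dvd_iff_pow_eq_one.mp ?_⟩
    have hdv := Subgroup.orderOf_dvd_natCard _ haz
    rw [card_of_root hm hK hz, show torusSmall 1 = 2 ^ 2 from rfl] at hdv
    exact (Nat.Coprime.pow_right 2 (Nat.coprime_two_right.mpr ha)).dvd_of_dvd_mul_left hdv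
  have key : ∀ k ∈ Subgroup.normalizer (V : Set ↥G¹), ∀ a ∈ hallPart hm hK 1 hz,
      k * a * k⁻¹ ∈ hallPart hm hK 1 hz := fun k hk a ha => by
    refine hmem _ (by rw [orderOf_conj_eq]; exact hHodd a ha) fun y hy => ?_
    have hy' : k⁻¹ * y * k ∈ V := by
      have := (Subgroup.mem_normalizer_iff.mp (inv_mem hk) y).mp hy
      rwa [inv_inv] at this
    calc k * a * k⁻¹ * y = k * (a * (k⁻¹ * y * k)) * k⁻¹ := by group
      _ = k * (k⁻¹ * y * k * a) * k⁻¹ := by rw [hHcomm a ha _ hy']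
      _ = _ := by group
  refine Subgroup.mem_normalizer_iff.mpr fun a => ⟨key n (hSV hn) a, fun ha => ?_⟩
  have := key n⁻¹ (inv_mem (hSV hn)) _ ha
  rwa [inv_inv, show n⁻¹ * (n * a * n⁻¹) * n = a by group] at this

theorem solvable_local (S : Subgroup ↥G¹) (hS : Group.IsSolvable ↥S) :
    LocalContained S := by
  classical
  haveI : Fact (Nat.Prime 2) := ⟨Nat.prime_two⟩
  rcases eq_or_ne S ⊥ with hbot | hne
  · obtain ⟨E⟩ := (inferInstance : Nonempty (Sylow 2 ↥G¹))
    exact ⟨E, hbot ▸ bot_le, Or.inl ⟨E, rfl⟩⟩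
  haveI : Nontrivial ↥S := (Subgroup.nontrivial_iff_ne_bot S).mpr hne
  have hnorm : ∀ N : Subgroup ↥S, N.Normal → S ≤ Subgroup.normalizer ((N.map S.subtype : Subgroup ↥G¹) : Set ↥G¹) := by
    intro N hN s hs
    have key : ∀ s ∈ S, ∀ y ∈ N.map S.subtype, s * y * s⁻¹ ∈ N.map S.subtype := by
      rintro s hs _ ⟨y, hy, rfl⟩
      exact ⟨_, hN.conj_mem y hy ⟨s, hs⟩, rfl⟩
    refine Subgroup.mem_normalizer_iff.mpr fun y => ⟨key s hs y, fun hy => ?_⟩
    have := key s⁻¹ (inv_mem hs) _ hy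
    rwa [inv_inv, show s⁻¹ * (s * y * s⁻¹) * s = y by group] at this
  obtain ⟨M, p, k, hMn, hMne, -, hMc, hp, hk, hMcard, hMexp⟩ :=
    CfsgLib.Solvable.exists_minimal_normal_of_solvable (G := ↥S)
  have hMne' : M.map S.subtype ≠ ⊥ := fun h =>
    hMne ((Subgroup.map_eq_bot_iff_of_injective _ S.subtype_injective).mp h)
  rcases eq_or_ne p 2 with rfl | hp2
  swap
  · refine odd_pgroup_case hK hm hp hp2 (hnorm M hMn) hMne' ?_ ?_
    · rintro _ ⟨y, hy, rfl⟩
      rw [← map_pow, hMexp y hy, map_one]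
    · rintro _ ⟨y, hy, rfl⟩ _ ⟨y', hy', rfl⟩
      rw [← map_mul, ← map_mul]
      exact congrArg S.subtype (congrArg Subtype.val (hMc.is_comm.comm (⟨y, hy⟩ : ↥M) ⟨y', hy'⟩))
  -- the largest normal two-subgroup
  let X := {N : Subgroup ↥S | N.Normal ∧ IsPGroup 2 ↥N}
  obtain ⟨N, ⟨hNn, hN2⟩, hmax⟩ := Set.exists_max_image X (fun N => Nat.card ↥N) (Set.toFinite X)
    ⟨M, hMn, IsPGroup.of_card hMcard⟩
  have hNlt : 1 < Nat.card ↥N := lt_of_lt_of_le ((Subgroup.one_lt_card_iff_ne_bot M).mpr hMne)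
    (hmax M ⟨hMn, IsPGroup.of_card hMcard⟩)
  set V := N.map S.subtype with hV
  have hVcard : Nat.card ↥V = Nat.card ↥N := Subgroup.card_map_of_injective S.subtype_injective
  obtain ⟨E, hE⟩ := (hN2.map S.subtype).exists_le_sylow
  obtain ⟨h8, h2⟩ := sylow_two_twisted hK E
  have hdvd : Nat.card ↥V ∣ 2 ^ 3 := (Subgroup.card_dvd_of_le hE).trans (dvd_of_eq h8)
  obtain ⟨j, hj, hjc⟩ := (Nat.dvd_prime_pow Nat.prime_two).mp hdvd
  interval_cases j
  · omega
  · -- order two: pass to the quotient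
    have hNcard : Nat.card ↥N = 2 := by rw [← hVcard, hjc, pow_one]
    have hcent : ∀ v : ↥S, v ∈ N → ∀ y : ↥S, y * v = v * y := by
      intro v hv y
      rcases eq_or_ne v 1 with rfl | hv1
      · simp
      · have hvy : y * v * y⁻¹ = v := by
          haveI := Fintype.ofFinite ↥N
          by_contra hne'
          have h3 : ({1, ⟨v, hv⟩, ⟨y * v * y⁻¹, hNn.conj_mem v hv y⟩} : Finset ↥N).card = 3 := by
            rw [Finset.card_eq_three]
            refine ⟨_, _, _, fun h => hv1 (congrArg Subtype.val h).symm,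
              fun h => hv1 (conj_eq_one_iff.mp (congrArg Subtype.val h).symm),
              fun h => hne' (congrArg Subtype.val h).symm, rfl⟩
          have := Finset.card_le_univ ({1, ⟨v, hv⟩, ⟨y * v * y⁻¹, hNn.conj_mem v hv y⟩} : Finset ↥N)
          rw [h3, ← Nat.card_eq_fintype_card, hNcard] at this
          omega
        calc y * v = y * v * y⁻¹ * y := by group
          _ = v * y := by rw [hvy]
    rcases eq_or_ne N ⊤ with hNtop | hNtop
    · refine ⟨E, fun s hs => Subgroup.le_normalizer (hE ⟨⟨s, hs⟩, hNtop ▸ Subgroup.mem_top _, rfl⟩),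
        Or.inl ⟨E, rfl⟩⟩
    haveI := hNn
    haveI : Nontrivial (↥S ⧸ N) := by
      rw [← Finite.one_lt_card_iff_nontrivial, ← Subgroup.index_eq_card]
      have h0 : N.index ≠ 0 := Subgroup.index_ne_zero_of_finite
      have h1 : N.index ≠ 1 := fun h => hNtop (Subgroup.index_eq_one.mp h)
      omega
    obtain ⟨L, p', k', hLn, -, -, hLc, hp', hk', hLcard, hLexp⟩ :=
      CfsgLib.Solvable.exists_minimal_normal_of_solvable (G := ↥S ⧸ N)
    set W := L.comap (QuotientGroup.mk' N) with hW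
    have hNW : N ≤ W := fun y hy => by
      simp [hW, Subgroup.mem_comap, (QuotientGroup.eq_one_iff y).mpr hy]
    haveI hWn : W.Normal := hLn.comap _
    have hWcard : Nat.card ↥W = 2 * p' ^ k' := by
      have e1 := W.card_mul_index
      rw [hW, Subgroup.index_comap_of_surjective _ (QuotientGroup.mk'_surjective N)] at e1
      have e2 := L.card_mul_index
      have e3 := N.card_mul_index
      rw [hNcard, Subgroup.index_eq_card] at e3
      rw [← e3, ← e2, hLcard, ← mul_assoc] at e1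
      exact Nat.eq_of_mul_eq_mul_right (Nat.pos_of_ne_zero Subgroup.index_ne_zero_of_finite) e1
    rcases eq_or_ne p' 2 with rfl | hp'2
    · exfalso
      have h1 := hmax W ⟨hWn, IsPGroup.of_card (n := k' + 1) (by rw [hWcard, pow_succ, mul_comm])⟩
      have h2' : 2 ≤ 2 ^ k' := Nat.le_self_pow (by omega) 2
      omega
    · haveI := Fact.mk hp'
      obtain ⟨Q⟩ := (inferInstance : Nonempty (Sylow p' ↥W))
      have hQcard : Nat.card ↥(Q : Subgroup ↥W) = p' ^ k' := by
        rw [Q.card_eq_multiplicity, hWcard, Nat.factorization_mul (by norm_num) (pow_ne_zero _ hp'.ne_zero),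
          Finsupp.add_apply, Nat.factorization_eq_zero_of_not_dvd (fun h => hp'2
            ((Nat.prime_dvd_prime_iff_eq hp' Nat.prime_two).mp h)), hp'.factorization_pow,
          Finsupp.single_eq_same, zero_add]
      have hQidx : (Q : Subgroup ↥W).index = 2 := by
        have e := (Q : Subgroup ↥W).card_mul_index
        rw [hQcard, hWcard, mul_comm 2] at e
        exact Nat.eq_of_mul_eq_mul_left (pow_pos hp'.pos _) e
      haveI : (Q : Subgroup ↥W).Normal := Subgroup.normal_of_index_eq_two hQidx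
      haveI : (Q : Subgroup ↥W).Characteristic := Q.characteristic_of_normal inferInstance
      have hQtriv : ∀ y : ↥W, y ∈ (Q : Subgroup ↥W) → (y : ↥S) ∈ N → y = 1 := fun y hy hyN => by
        have h1 := Subgroup.orderOf_dvd_natCard _ hy
        have h2' := Subgroup.orderOf_dvd_natCard _ hyN
        rw [hQcard] at h1
        rw [hNcard, Subgroup.orderOf_coe] at h2'
        exact orderOf_eq_one_iff.mp (Nat.eq_one_of_dvd_one
          ((Nat.Coprime.pow_left k' ((Nat.coprime_primes hp' Nat.prime_two).mpr hp'2)) ▸ Nat.dvd_gcd h1 h2'))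
      set R : Subgroup ↥S := (Q : Subgroup ↥W).map W.subtype with hR
      haveI hRn : R.Normal := inferInstance
      refine odd_pgroup_case hK hm hp' hp'2 (hnorm R hRn) ?_ ?_ ?_
      · intro h
        have hb := (Subgroup.map_eq_bot_iff_of_injective _ W.subtype_injective).mp
          ((Subgroup.map_eq_bot_iff_of_injective _ S.subtype_injective).mp h)
        rw [hb, Subgroup.card_bot] at hQcard
        exact (Nat.one_lt_pow (by omega) hp'.one_lt).ne hQcard
      · rintro _ ⟨_, ⟨y, hy, rfl⟩, rfl⟩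
        rw [← map_pow, ← map_pow, hQtriv (y ^ p') (pow_mem hy _) ?_, map_one, map_one]
        have := hLexp _ (show QuotientGroup.mk' N (y : ↥S) ∈ L from y.2)
        rw [← map_pow] at this
        exact (QuotientGroup.eq_one_iff _).mp this
      · rintro _ ⟨_, ⟨y, hy, rfl⟩, rfl⟩ _ ⟨_, ⟨y', hy', rfl⟩, rfl⟩
        have h1 : y * y' * y⁻¹ * y'⁻¹ = 1 := hQtriv _
          (mul_mem (mul_mem (mul_mem hy hy') (inv_mem hy)) (inv_mem hy')) (by
          rw [← QuotientGroup.eq_one_iff]
          have := congrArg Subtype.val (hLc.is_comm.comm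
            (⟨QuotientGroup.mk' N (y : ↥S), y.2⟩ : ↥L) ⟨QuotientGroup.mk' N (y' : ↥S), y'.2⟩)
          simp only [Subgroup.coe_mul, QuotientGroup.mk'_apply] at this
          simp only [Subgroup.coe_mul, Subgroup.coe_inv, QuotientGroup.mk_mul, QuotientGroup.mk_inv]
          rw [this]; group)
        have h2' : y * y' = y' * y := by
          calc y * y' = y * y' * y⁻¹ * y'⁻¹ * (y' * y) := by group
            _ = _ := by rw [h1, one_mul]
        rw [← map_mul, ← map_mul, ← map_mul, ← map_mul, h2']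
  · exact four_case hK hm hjc (fun y hy => h2 y (hE hy)) (hnorm N hNn)
  · refine ⟨E, ?_, Or.inl ⟨E, rfl⟩⟩
    have hVE : V = E := Subgroup.eq_of_le_of_card_ge hE (by rw [hjc]; exact le_of_eq h8)
    rw [← hVE]
    exact hnorm N hNn

end CfsgLib.Ree
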